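import Cfsg.Agent.H999.IF.EngB

/-!
# S5719: general lemmas for the small sporadic rows (helper109)

* `no_odd` : `|A|` odd is impossible if every outer involution centralises a subgroup of order divisible by `2 ^ k`,
  `|T| ≤ 2 ^ (6 k)`;
* `exists_pow` : `x ∈ C_T(t)`, `t ∈ A` an involution, `|T : C_T(t)| ≤ (M + 1) ^ 5`: `x ^ n ∈ A` for some `0 < n ≤ M`;
* `few` : the number of conjugates of `t` in `A`.
-/

set_option autoImplicit false

namespace Cfsg.Agent.H109.IFx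

open MulAction Subgroup Cfsg.Agent.H284 Cfsg.Agent.H209.Fxy Cfsg.Agent.H999.IFB

variable {T : Type*} [Group T] [Finite T] [IsSimpleGroup T] {A : Subgroup T} {Γ : Subgroup (MulAut T)}

/-- **`|A|` odd.** -/
theorem no_odd (h : IF A Γ) (hna : ∃ a b : T, a * b ≠ b * a) (hodd : Odd (Nat.card A)) {k : ℕ}
    (hk : Nat.card T ≤ 2 ^ (6 * k))
    (H : ∀ σ : MulAut T, orderOf σ = 2 → σ ∉ (MulAut.conj : T →* MulAut T).range →
      ∃ B : Subgroup T, (∀ b ∈ B, σ b = b) ∧ 2 ^ k ∣ Nat.card B) : False := by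
  obtain ⟨σ, hσ, ho, -⟩ := h.ex
  by_cases hin : σ ∈ (MulAut.conj : T →* MulAut T).range
  · obtain ⟨a, rfl⟩ := hin
    have ha : a ∈ A := (h.conj a).1 hσ
    rw [orderOf_conj hna] at ho
    have h1 : 2 ∣ Nat.card A := by
      rw [← ho, ← orderOf_mk a ha]
      exact orderOf_dvd_natCard _
    exact (Nat.not_even_iff_odd.2 hodd) (even_iff_two_dvd.2 h1)
  · obtain ⟨B, hB, hd⟩ := H σ ho hin
    have h1 := (IF.E1 h hσ ho hB).2
    have h3 : Nat.card B = A.relIndex B * Nat.card (A.subgroupOf B) := by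
      rw [Subgroup.relIndex, ← Subgroup.index_mul_card (A.subgroupOf B)]
    have h4 : Nat.card (A.subgroupOf B) ∣ Nat.card A := by
      rw [← Subgroup.inf_subgroupOf_right,
        Nat.card_congr (Subgroup.subgroupOfEquivOfLe (inf_le_right : A ⊓ B ≤ B)).toEquiv]
      exact Subgroup.card_dvd_of_le inf_le_left
    have h5 : Nat.Coprime (2 ^ k) (Nat.card (A.subgroupOf B)) := by
      apply Nat.Coprime.pow_left
      rw [Nat.coprime_two_left]
      exact Odd.of_dvd_nat hodd h4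
    have h6 : 2 ^ k ∣ A.relIndex B := by
      rw [h3] at hd
      exact h5.dvd_of_dvd_mul_right hd
    have h7 : 0 < A.relIndex B := by
      apply Nat.pos_of_ne_zero
      intro h0
      rw [h0, zero_mul] at h3
      exact Nat.card_pos.ne' h3
    have h8 := Nat.le_of_dvd h7 h6
    have h9 : A.index ≤ Nat.card T := by
      rw [← A.card_mul_index]
      exact Nat.le_mul_of_pos_left _ Nat.card_pos
    have h10 : (2 ^ k) ^ 6 ≤ A.relIndex B ^ 6 := Nat.pow_le_pow_left h8 6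
    rw [← pow_mul, mul_comm k 6] at h10
    omega

theorem exists_pow (h : IF A Γ) (hna : ∃ a b : T, a * b ≠ b * a) {t : T} (ht : t ∈ A) (h2 : orderOf t = 2) {M : ℕ}
    (hM : (centralizer ({t} : Set T)).index ≤ (M + 1) ^ 5) {x : T} (hx : x * t = t * x) :
    ∃ n, 0 < n ∧ n ≤ M ∧ x ^ n ∈ A := by
  obtain ⟨-, -, -, -, hB⟩ := IF.E2' h hna ht h2
  have h1 := (hB (centralizer ({t} : Set T)) le_rfl).1
  have h3 : A.relIndex (centralizer ({t} : Set T)) ≤ M := by
    by_contra hc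
    push Not at hc
    have := Nat.pow_le_pow_left (show M + 1 ≤ A.relIndex (centralizer ({t} : Set T)) by omega) 5
    omega
  have h0 : (A.subgroupOf (centralizer ({t} : Set T))).index ≠ 0 := Subgroup.index_ne_zero_of_finite
  obtain ⟨n, hn, hn', hm⟩ := Subgroup.exists_pow_mem_of_index_ne_zero h0
    (⟨x, Subgroup.mem_centralizer_singleton_iff.2 hx⟩ : centralizer ({t} : Set T))
  exact ⟨n, hn, hn'.trans h3, hm⟩

/-- `x ∈ C_T(t)` of order 8, `|T : C_T(t)| ≤ 8 ^ 5`: `x ^ 4 ∈ A`. -/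
theorem pow_four (h : IF A Γ) (hna : ∃ a b : T, a * b ≠ b * a) {t : T} (ht : t ∈ A) (h2 : orderOf t = 2)
    (hM : (centralizer ({t} : Set T)).index ≤ 8 ^ 5) {x : T} (hx : x * t = t * x) (h8 : x ^ 8 = 1) : x ^ 4 ∈ A := by
  obtain ⟨n, hn, hn', hm⟩ := exists_pow (M := 7) h hna ht h2 hM hx
  have h3 : n ∣ 420 := by
    interval_cases n <;> decide
  obtain ⟨j, hj⟩ := h3
  have h4 : x ^ 420 ∈ A := by
    rw [hj, pow_mul]
    exact pow_mem hm j
  have h5 : x ^ 420 = x ^ 4 := by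
    rw [show 420 = 8 * 52 + 4 by norm_num, pow_add, pow_mul, h8, one_pow, one_mul]
  rwa [h5] at h4

/-- **The conjugates of `t` in `A`.** -/
theorem few (h : IF A Γ) (hna : ∃ a b : T, a * b ≠ b * a) {t : T} (ht : t ∈ A) (h2 : orderOf t = 2)
    (S : Finset T) (hS : ∀ s ∈ S, s ∈ A ∧ IsConj t s) :
    ∃ f, f ^ 6 < A.index ∧ S.card * A.index ≤ f * (centralizer ({t} : Set T)).index := by
  obtain ⟨ho, hc, -⟩ := IF.E2' h hna ht h2
  have hσ : MulAut.conj t ∈ Γ := (h.conj t).2 ht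
  refine ⟨fx A (MulAut.conj t), h.small _ hσ ho, ?_⟩
  rw [← hc, IF.fix_formula' h hσ, mul_comm]
  refine Nat.mul_le_mul_left _ ?_
  have hinj : Function.Injective (MulAut.conj : T →* MulAut T) := by
    rw [injective_iff_map_eq_one]
    intro z hz
    by_contra hne
    have h3 := orderOf_conj hna z
    rw [hz, orderOf_one] at h3
    exact hne (orderOf_eq_one_iff.1 h3.symm)
  have h4 : (MulAut.conj '' (S : Set T)) ⊆ icl (MulAut.conj t) ∩ (Γ : Set (MulAut T)) := by
    rintro _ ⟨s, hs, rfl⟩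
    obtain ⟨hsA, hsc⟩ := hS s hs
    obtain ⟨c, hc'⟩ := isConj_iff.1 hsc
    refine ⟨⟨c, ?_⟩, (h.conj s).2 hsA⟩
    rw [← map_mul, ← map_inv, ← map_mul, hc']
  have h5 := Set.ncard_le_ncard h4 (Set.toFinite _)
  rwa [Set.ncard_image_of_injective _ hinj, Set.ncard_coe_finset] at h5

end Cfsg.Agent.H109.IFx
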