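import Cfsg.Agent.H109.IF.Gen
import Cfsg.Agent.H209.IF.Kill
import Cfsg.Agent.KFacts.HS.Base
import Cfsg.Agent.HN.InvH0
import Cfsg.Agent.HN.CentUp
import Cfsg.Agent.HN.A8Facts

/-!
# S5719: the row `HS` (helper109)

`Q ≤ Perm (Fin 100)` is the group `HS`, `H0 = 2.HS.2`, `φ : H0 → Perm (Fin 100)`, `a = y ^ 3` (class 2A, `|C| = 7680`),
`gx` (class 2B, `|C| = 2880`), outer involutions `gz`, `d`.

* an involution 2A in `A` gives 24 conjugates of it in `A` (fourth powers of elements of order 8 of the centralizer);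
* an involution 2B in `A` gives an involution 2A in `A`;
* the outer involutions centralise subgroups of order divisible by 32.
-/

set_option autoImplicit false
set_option maxRecDepth 100000

namespace Cfsg.Agent.H109.IFx.HS

open Cfsg Cfsg.Agent.HN.Pres Cfsg.Agent.HN.HS100 Cfsg.Agent.HN.P1408 Cfsg.Agent.HN.H0Basic
open Cfsg.Agent.HN.Syl Cfsg.Agent.HN.Classes Cfsg.Agent.HN.Iota Cfsg.Agent.HN.InvH0 Cfsg.Agent.HN.CentUp
open Cfsg.Agent.HN.DoubleCover Cfsg.Agent.KFacts.HS
open Cfsg.Agent.SporadicA.PermTab Cfsg.Agent.HN.Local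
open Cfsg.Agent.H209.Fxy Equiv Subgroup

/-! ### words on the 100 points -/

/-- equality of the permutations of two words -/
def ew (w w' : List ℕ) : Bool := allB (fun i => Nat.beq (t1 w i) (t1 w' i)) 100

theorem ew_eq {w w' : List ℕ} (h : ew w w' = true) : φ (hw w) = φ (hw w') := by
  refine Equiv.ext fun i => Fin.ext ?_
  rw [φ_hw_apply, φ_hw_apply]
  exact Nat.eq_of_beq_eq_true ((allB_iff _ _).1 h i i.2)

/-- the word is in `K` and commutes with the word `T` -/
def okc (T : List ℕ) (e : ℕ) : Bool :=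
  band (okw (decW e)) (band (cond (par (decW e)) false true) (ew (decW e ++ T) (T ++ decW e)))

/-- the permutation of a coded word -/
noncomputable def g (e : ℕ) : Perm (Fin 100) := φ (hw (decW e))

theorem okc_spec {T : List ℕ} {e : ℕ} (h : okc T e = true) : g e ∈ Q ∧ g e * φ (hw T) = φ (hw T) * g e := by
  unfold okc at h
  rw [band_eq_true, band_eq_true] at h
  obtain ⟨h1, h2, h3⟩ := h
  refine ⟨⟨hw (decW e), mem_K_of_par h1 ?_, rfl⟩, ?_⟩
  · cases hp : par (decW e) with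
    | false => rfl
    | true => rw [hp] at h2; exact absurd h2 (by decide)
  · have h4 := ew_eq h3
    rw [hw_append, hw_append, map_mul, map_mul] at h4
    exact h4

/-- the centralizer in `Q` of a permutation -/
def CQ (x : Perm (Fin 100)) : Subgroup (Perm (Fin 100)) := Q ⊓ centralizer {x}

theorem card_CQ {x : Perm (Fin 100)} (hx : x ∈ Q) :
    Nat.card (centralizer ({(⟨x, hx⟩ : Q)} : Set Q)) = Nat.card (CQ x) := by
  have h1 : (centralizer ({(⟨x, hx⟩ : Q)} : Set Q)).map Q.subtype = CQ x := by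
    ext c
    constructor
    · rintro ⟨d, hd, rfl⟩
      exact ⟨d.2, Subgroup.mem_centralizer_singleton_iff.2
        (congrArg Subtype.val (Subgroup.mem_centralizer_singleton_iff.1 hd))⟩
    · rintro ⟨h2, h3⟩
      exact ⟨⟨c, h2⟩, Subgroup.mem_centralizer_singleton_iff.2
        (Subtype.ext (Subgroup.mem_centralizer_singleton_iff.1 h3)), rfl⟩
  rw [← h1]
  exact Nat.card_congr (Subgroup.equivMapOfInjective _ _ Q.subtype_injective).toEquiv

theorem index_le {x : Perm (Fin 100)} (hx : x ∈ Q) {n m : ℕ} (h : n ≤ Nat.card (CQ x)) (hnm : 44352000 ≤ n * m) (hn : 0 < n) :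
    (centralizer ({(⟨x, hx⟩ : Q)} : Set Q)).index ≤ m := by
  have h1 := (centralizer ({(⟨x, hx⟩ : Q)} : Set Q)).index_mul_card
  rw [card_CQ hx, HN.AutBound.card_Q] at h1
  by_contra hc
  push Not at hc
  have h2 : m * n < 44352000 + 1 := by
    calc m * n ≤ m * Nat.card (CQ x) := Nat.mul_le_mul_left _ h
      _ ≤ (centralizer ({(⟨x, hx⟩ : Q)} : Set Q)).index * Nat.card (CQ x) := Nat.mul_le_mul_right _ hc.le
      _ < _ := by rw [h1]; norm_num
  have h3 : (m + 1) * n ≤ 44352000 := by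
    calc (m + 1) * n ≤ (m + 1) * Nat.card (CQ x) := Nat.mul_le_mul_left _ h
      _ ≤ (centralizer ({(⟨x, hx⟩ : Q)} : Set Q)).index * Nat.card (CQ x) := Nat.mul_le_mul_right _ hc
      _ = 44352000 := h1
  have h4 : (m + 1) * n = n * m + n := by ring
  omega

/-- lower bound of the order of a group from two orbits -/
theorem card_ge {C : Subgroup (Perm (Fin 100))} {l₁ l₂ : List ℕ} (p₁ p₂ : Fin 100) (h₁ : ∀ e ∈ l₁, g e ∈ C)
    (h₂ : ∀ e ∈ l₂, g e ∈ C ∧ g e p₁ = p₁) (n₁ : (l₁.map fun e => t1 (decW e) p₁).Nodup)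
    (n₂ : (l₂.map fun e => t1 (decW e) p₂).Nodup) : l₁.length * l₂.length ≤ Nat.card C := by
  let F : Fin l₁.length × Fin l₂.length → C := fun p =>
    ⟨g (l₁.get p.1) * g (l₂.get p.2), C.mul_mem (h₁ _ (List.get_mem _ _)) (h₂ _ (List.get_mem _ _)).1⟩
  have hg : ∀ e (p : Fin 100), ((g e p : Fin 100) : ℕ) = t1 (decW e) p := fun e p => φ_hw_apply _ _
  have key : ∀ (l : List ℕ) (p : Fin 100), (l.map fun e => t1 (decW e) p).Nodup → ∀ i j : Fin l.length,
      g (l.get i) p = g (l.get j) p → i = j := by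
    intro l p hn i j hij
    have h3 := congrArg Fin.val hij
    rw [hg, hg] at h3
    have h5 := List.Nodup.of_map _ hn
    rw [List.nodup_map_iff_inj_on h5] at hn
    have h4 := hn _ (List.get_mem l i) _ (List.get_mem l j) h3
    exact (List.Nodup.get_inj_iff h5).1 h4
  have hF : Function.Injective F := by
    rintro ⟨i, j⟩ ⟨i', j'⟩ hij
    have h3 : g (l₁.get i) * g (l₂.get j) = g (l₁.get i') * g (l₂.get j') := congrArg Subtype.val hij
    have h4 := congrArg (fun z : Perm (Fin 100) => z p₁) h3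
    simp only [Perm.mul_apply, (h₂ _ (List.get_mem l₂ _)).2] at h4
    have h5 := key l₁ p₁ n₁ i i' h4
    subst h5
    have h6 := mul_left_cancel h3
    have h7 := key l₂ p₂ n₂ j j' (by rw [h6])
    rw [h7]
  have h3 := Nat.card_le_card_of_injective F hF
  rwa [Nat.card_prod, Nat.card_fin, Nat.card_fin] at h3

/-! ### the data -/

/-- words in `C(a)` (conjugators) -/
def CS : List ℕ := [
  0x1, 0xa, 0xb, 0x438dc6d8, 0x424a2510, 0x2120920d8, 0x21c6e36c2, 0x10d8490483, 0x10904906c2, 0x16120920d8,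
  0x141b092090, 0x2145044a20d8, 0x21c7046e3090, 0x10a28225106c3, 0x10e3823718482, 0x109071b8238c2,
  0x10a28225106c2, 0x10e3823718483, 0x10d8512822883, 0x10d8512822882, 0x109071b8238c3, 0xc4a38e30d88dc,
  0x84105146c2514, 0x861871c48371c]

/-- elements of `C(x)`, the orbit of the first point -/
def L1 : List ℕ := [
  0x1, 0x8, 0xa0c2, 0x58418, 0xa418612, 0xb61041b, 0x5b0820d8, 0x520c3090, 0x14a370241b, 0x16e2503612,
  0xa8a3614503, 0xa412082412, 0xb61b0c361b, 0xa51b8120d8, 0xb71281b090, 0x586186c30c3, 0x5b0820db8a3,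
  0x5451b0a2818, 0x5b0820db083, 0x520c30920c2, 0x520c3093083, 0x5b0d861b0d8, 0x52090412090, 0x31451b822503,
  0x2c30c3618618, 0xa5144844a2894, 0xa51b8120db8a3, 0x5841a412082412, 0x5061361b0c361b, 0x5b0d861b0da0c2,
  0x5b0d861b0db8a3, 0x520904120928e2, 0x2945108940dc512, 0x2906184a281c503, 0x2d84106e3814702,
  0x14a289451b8a20db, 0x14830c2484704503, 0x16c20836c38db8c3, 0x16c20836dc5028dc, 0x14830c2494703894]

/-- elements of `C(x)` fixing the first point, the orbit of the second point -/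
def L2 : List ℕ := [
  0x1, 0x5c518, 0x54710, 0x547128e2, 0x5841b083, 0x506120c2, 0x16e28146e0, 0x14a381c4a0, 0x5451871281b,
  0x5c71051b812, 0x14228d88a28dc, 0x17146dc5028dc, 0x151c494703894, 0x14a381c4a28e2, 0x16e28146e38a3,
  0x1610682892882, 0x142382281b083, 0xa1144a371c703, 0xa1145144188e3, 0xa1145128dc703, 0xa8a041c71c703,
  0x62812892894502, 0x22381b8db8dc703, 0x16c47125128a38c3, 0x171b8906237128a2, 0xa512884512894514,
  0xa51b8c28a08e38e3, 0xa8a2512884512894, 0xa8a28a08e30a251b, 0xb8dc6238928a0514, 0xc5128a05125188e3,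
  0xc7188e24a28144a2, 0xc6e371c0e371b8e3, 0x85128d842251b8e3, 0x547138e0614514502, 0x420838e36dc71c502]

/-- an element of order 8 in `C(a)` -/
def xa : List ℕ := [0, 4, 3, 4, 3, 4, 2, 4]
/-- its fourth power -/
def za : List ℕ := xa ++ (xa ++ (xa ++ xa))
/-- an element of order 8 in `C(x)` -/
def xb : List ℕ := [4, 3, 4, 3, 3, 0, 2, 0, 3, 3, 0, 2, 4, 2, 4, 0, 2]
/-- its fourth power -/
def zb : List ℕ := xb ++ (xb ++ (xb ++ xb))

/-- code of the conjugate `c z c⁻¹` -/
def cod (e : ℕ) : ℕ := t1 (decW e ++ (za ++ iw (decW e))) 0 + 128 * t1 (decW e ++ (za ++ iw (decW e))) 1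

theorem chkCS : ∀ e ∈ CS, okc [2, 2, 2] e = true := by decide +kernel
theorem nodCS : (CS.map cod).Nodup := by decide +kernel
theorem chkL1 : ∀ e ∈ L1, okc [0] e = true := by decide +kernel
theorem chkL2 : ∀ e ∈ L2, okc [0] e = true ∧ t1 (decW e) 52 = 52 := by decide +kernel
theorem nodL1 : (L1.map fun e => t1 (decW e) 52).Nodup := by decide +kernel
theorem nodL2 : (L2.map fun e => t1 (decW e) 82).Nodup := by decide +kernel

/-! ### the two classes of involutions -/

theorem a_mem : φ a ∈ Q := ⟨a, by rw [← hw_a]; exact mem_K_of_par rfl rfl, rfl⟩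
theorem x_mem : φ gx ∈ Q := ⟨gx, gx_mem, rfl⟩

/-- the involution 2A -/
def ta : Q := ⟨φ a, a_mem⟩
/-- the involution 2B -/
def tb : Q := ⟨φ gx, x_mem⟩

theorem hna : ∃ a b : Q, a * b ≠ b * a := by
  by_contra hc
  push Not at hc
  have h1 : φ gx * φ gy = φ gy * φ gx := congrArg Subtype.val (hc ⟨φ gx, x_mem⟩ ⟨φ gy, gy, gy_mem, rfl⟩)
  have h2 := congrArg (fun z : Perm (Fin 100) => ((z 0 : Fin 100) : ℕ)) h1
  rw [← hw_x, ← hw_y, ← map_mul, ← map_mul, ← hw_append, ← hw_append] at h2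
  simp only [φ_hw_apply] at h2
  revert h2
  decide +kernel

theorem orderOf_ta : orderOf ta = 2 := by
  apply orderOf_eq_prime
  · apply Subtype.ext
    change φ a ^ 2 = 1
    rw [← map_pow, a_sq', map_one]
  · intro h1
    have h2 := (φ_eq_one_iff (g := a)).1 (congrArg Subtype.val h1)
    rcases h2 with h2 | h2
    · exact a_ne_one h2
    · exact a_ne_τ h2

theorem card_Ca : 7680 ≤ Nat.card (CQ (φ a)) := by
  have hfin : Finite H0 := finite_H0
  set C := centralizer ({a} : Set H0) ⊓ K with hC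
  have h1 : 15360 ≤ Nat.card C := by
    have h2 : Nat.card (centralizer ({a} : Set H0)) = 30720 := card_centralizer_a
    have h3 : Nat.card C * K.relIndex (centralizer ({a} : Set H0)) = Nat.card (centralizer ({a} : Set H0)) := by
      rw [hC, ← Subgroup.card_mul_index (K.subgroupOf (centralizer ({a} : Set H0))), Subgroup.relIndex]
      congr 1
      rw [← Subgroup.inf_subgroupOf_right, inf_comm,
        Nat.card_congr (Subgroup.subgroupOfEquivOfLe (inf_le_right : K ⊓ centralizer ({a} : Set H0) ≤ _)).toEquiv]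
    have h4 : K.relIndex (centralizer ({a} : Set H0)) ≤ 2 := by
      have h5 := Subgroup.relIndex_dvd_index_of_normal K (centralizer ({a} : Set H0))
      rw [K_index] at h5
      exact Nat.le_of_dvd (by norm_num) h5
    have h6 := Nat.mul_le_mul_left (Nat.card C) h4
    omega
  have h2 : Nat.card C = 2 * Nat.card (C.map φ) := by
    apply card_eq_two_mul
    exact ⟨τ_mem_centralizer _, τ_mem_K⟩
  have h3 : C.map φ ≤ CQ (φ a) := by
    rintro _ ⟨c, ⟨hc, hcK⟩, rfl⟩
    refine ⟨⟨c, hcK, rfl⟩, Subgroup.mem_centralizer_singleton_iff.2 ?_⟩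
    rw [← map_mul, ← map_mul, Subgroup.mem_centralizer_singleton_iff.1 hc]
  have h4 := Subgroup.card_le_of_le h3
  omega

theorem index_ta : (centralizer ({ta} : Set Q)).index ≤ 5775 := index_le a_mem card_Ca (by norm_num) (by norm_num)

theorem card_Cx : 1440 ≤ Nat.card (CQ (φ gx)) := by
  have h1 : ∀ e, okc [0] e = true → g e ∈ CQ (φ gx) := by
    intro e he
    obtain ⟨h2, h3⟩ := okc_spec he
    rw [hw_x] at h3
    exact ⟨h2, Subgroup.mem_centralizer_singleton_iff.2 h3⟩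
  have h2 := card_ge (C := CQ (φ gx)) (l₁ := L1) (l₂ := L2) 52 82 (fun e he => h1 e (chkL1 e he))
    (fun e he => ⟨h1 e (chkL2 e he).1, Fin.ext (by rw [g, φ_hw_apply]; exact (chkL2 e he).2)⟩) nodL1 nodL2
  exact h2

theorem index_tb : (centralizer ({tb} : Set Q)).index ≤ 8 ^ 5 := index_le x_mem card_Cx (by norm_num) (by norm_num)

theorem orderOf_tb : orderOf tb = 2 := by
  apply orderOf_eq_prime
  · apply Subtype.ext
    change φ gx ^ 2 = 1
    rw [φ_gx, X_sq]
  · intro h1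
    have h2 : φ gx = 1 := congrArg Subtype.val h1
    have h3 := supp_x
    rw [h2, Perm.support_one] at h3
    simp at h3
/-! ### the kills -/

variable {A : Subgroup Q} {Γ : Subgroup (MulAut Q)}

instance : IsSimpleGroup Q := HN.AutHS.nonempty_Q.2

theorem w_mem {w : List ℕ} (h1 : okw w = true) (h2 : par w = false) : φ (hw w) ∈ Q := ⟨_, mem_K_of_par h1 h2, rfl⟩

/-- the order 8 element of `C(a)` -/
def qa : Q := ⟨φ (hw xa), w_mem rfl rfl⟩
/-- the order 8 element of `C(x)` -/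
def qb : Q := ⟨φ (hw xb), w_mem rfl rfl⟩

theorem pow4 (w : List ℕ) : φ (hw (w ++ (w ++ (w ++ w)))) = φ (hw w) ^ 4 := by
  simp only [hw_append, map_mul, pow_succ, pow_zero, one_mul, mul_assoc]

theorem pow8 (w : List ℕ) : φ (hw ((w ++ (w ++ (w ++ w))) ++ (w ++ (w ++ (w ++ w))))) = φ (hw w) ^ 8 := by
  rw [hw_append, map_mul, pow4, ← pow_add]

theorem qa_comm : qa * ta = ta * qa := by
  apply Subtype.ext
  change φ (hw xa) * φ a = φ a * φ (hw xa)
  rw [← hw_a, ← map_mul, ← map_mul, ← hw_append, ← hw_append]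
  exact ew_eq (by decide +kernel)

theorem qa_pow : qa ^ 8 = 1 := by
  apply Subtype.ext
  change φ (hw xa) ^ 8 = 1
  rw [← pow8, ← map_one φ, ← hw_nil]
  exact ew_eq (by decide +kernel)

theorem qa_conj : IsConj ta (qa ^ 4) := by
  rw [isConj_iff]
  refine ⟨⟨φ (hw [4, 2, 2, 2, 4, 3, 3, 4, 3, 4]), w_mem rfl rfl⟩, ?_⟩
  rw [mul_inv_eq_iff_eq_mul]
  apply Subtype.ext
  change φ (hw [4, 2, 2, 2, 4, 3, 3, 4, 3, 4]) * φ a = φ (hw xa) ^ 4 * φ (hw [4, 2, 2, 2, 4, 3, 3, 4, 3, 4])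
  rw [← pow4, ← hw_a, ← map_mul, ← map_mul, ← hw_append, ← hw_append]
  exact ew_eq (by decide +kernel)

theorem qb_comm : qb * tb = tb * qb := by
  apply Subtype.ext
  change φ (hw xb) * φ gx = φ gx * φ (hw xb)
  rw [← hw_x, ← map_mul, ← map_mul, ← hw_append, ← hw_append]
  exact ew_eq (by decide +kernel)

theorem qb_pow : qb ^ 8 = 1 := by
  apply Subtype.ext
  change φ (hw xb) ^ 8 = 1
  rw [← pow8, ← map_one φ, ← hw_nil]
  exact ew_eq (by decide +kernel)

theorem qb_conj : ∃ c : Q, c * ta * c⁻¹ = qb ^ 4 := by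
  refine ⟨⟨φ (hw [3, 0, 3, 3, 4, 3, 4, 2, 2, 0]), w_mem rfl rfl⟩, ?_⟩
  rw [mul_inv_eq_iff_eq_mul]
  apply Subtype.ext
  change φ (hw [3, 0, 3, 3, 4, 3, 4, 2, 2, 0]) * φ a = φ (hw xb) ^ 4 * φ (hw [3, 0, 3, 3, 4, 3, 4, 2, 2, 0])
  rw [← pow4, ← hw_a, ← map_mul, ← map_mul, ← hw_append, ← hw_append]
  exact ew_eq (by decide +kernel)

/-- **no involution 2A in `A`** -/
theorem killA (h : IF A Γ) (ht : ta ∈ A) : False := by
  classical
  -- the conjugators
  have hc : ∀ e ∈ CS, ∃ c : Q, c * ta = ta * c ∧ (c : Perm (Fin 100)) = g e := by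
    intro e he
    obtain ⟨h1, h2⟩ := okc_spec (chkCS e he)
    rw [hw_a] at h2
    exact ⟨⟨g e, h1⟩, Subtype.ext h2, rfl⟩
  choose! c hc1 hc2 using hc
  have hpow : ∀ (e : ℕ) (k : ℕ), (c e * qa * (c e)⁻¹) ^ k = c e * qa ^ k * (c e)⁻¹ := fun e k => conj_pow
  have hmem : ∀ e ∈ CS, c e * qa ^ 4 * (c e)⁻¹ ∈ A := by
    intro e he
    rw [← hpow]
    refine pow_four h hna ht orderOf_ta (index_ta.trans (by norm_num)) ?_ (by rw [hpow, qa_pow, mul_one, mul_inv_cancel])
    have h1 : (c e)⁻¹ * ta = ta * (c e)⁻¹ := by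
      rw [inv_mul_eq_iff_eq_mul, ← mul_assoc, hc1 e he, mul_inv_cancel_right]
    calc c e * qa * (c e)⁻¹ * ta = c e * qa * ((c e)⁻¹ * ta) := by group
      _ = c e * (qa * ta) * (c e)⁻¹ := by rw [h1]; group
      _ = (c e * ta) * qa * (c e)⁻¹ := by rw [qa_comm]; group
      _ = ta * (c e * qa * (c e)⁻¹) := by rw [hc1 e he]; group
  let S : Finset Q := CS.toFinset.image fun e => c e * qa ^ 4 * (c e)⁻¹
  have hcode : ∀ e ∈ CS, cod e = ((((c e * qa ^ 4 * (c e)⁻¹ : Q) : Perm (Fin 100)) 0 : Fin 100) : ℕ) +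
      128 * ((((c e * qa ^ 4 * (c e)⁻¹ : Q) : Perm (Fin 100)) 1 : Fin 100) : ℕ) := by
    intro e he
    have h1 : ((c e * qa ^ 4 * (c e)⁻¹ : Q) : Perm (Fin 100)) = φ (hw (decW e ++ (za ++ iw (decW e)))) := by
      change (c e : Perm (Fin 100)) * φ (hw xa) ^ 4 * (c e : Perm (Fin 100))⁻¹ = _
      rw [hc2 e he, hw_append, hw_append, hw_iw, map_mul, map_mul, map_inv, za, pow4, g]
      group
    rw [h1, φ_hw_apply, φ_hw_apply]
    rfl
  have hcard : S.card = 24 := by
    rw [Finset.card_image_of_injOn, List.toFinset_card_of_nodup (List.Nodup.of_map _ nodCS)]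
    · rfl
    · intro e he e' he' hee
      have he1 : e ∈ CS := List.mem_toFinset.1 he
      have he2 : e' ∈ CS := List.mem_toFinset.1 he'
      have h1 : cod e = cod e' := by
        rw [hcode e he1, hcode e' he2]
        have h2 : c e * qa ^ 4 * (c e)⁻¹ = c e' * qa ^ 4 * (c e')⁻¹ := hee
        rw [h2]
      exact (List.nodup_map_iff_inj_on (List.Nodup.of_map _ nodCS)).1 nodCS _ he1 _ he2 h1
  obtain ⟨f, hf1, hf2⟩ := few h hna ht orderOf_ta S (by
    intro s hs
    obtain ⟨e, he, rfl⟩ := Finset.mem_image.1 hs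
    refine ⟨hmem e (List.mem_toFinset.1 he), qa_conj.trans (isConj_iff.2 ⟨c e, rfl⟩)⟩)
  rw [hcard] at hf2
  have h1 := h.big
  have h2 : 24 * A.index ≤ f * 5775 := hf2.trans (Nat.mul_le_mul_left _ index_ta)
  by_cases h3 : f ≤ 3
  · omega
  · push Not at h3
    have h4 : 24 * (f * f ^ 5) < f * 5775 := by
      calc 24 * (f * f ^ 5) = 24 * f ^ 6 := by ring
        _ < 24 * A.index := by omega
        _ ≤ _ := h2
    have h5 : 4 ^ 5 ≤ f ^ 5 := Nat.pow_le_pow_left h3 5
    have h6 : f * (24 * 4 ^ 5) ≤ 24 * (f * f ^ 5) := by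
      calc f * (24 * 4 ^ 5) ≤ f * (24 * f ^ 5) := Nat.mul_le_mul_left _ (Nat.mul_le_mul_left _ h5)
        _ = _ := by ring
    have h7 : f * (24 * 4 ^ 5) < f * 5775 := lt_of_le_of_lt h6 h4
    have h8 := lt_of_mul_lt_mul_left h7 (Nat.zero_le _)
    norm_num at h8

theorem mem_conj (e : MulAut Q) {x y : Q} (hx : x ∈ A) (hy : e x = y) : y ∈ A.map e.toMonoidHom := ⟨x, hx, hy⟩

/-- **no involution 2B in `A`** -/
theorem killB (h : IF A Γ) (ht : tb ∈ A) : False := by
  have h1 := pow_four h hna ht orderOf_tb index_tb qb_comm qb_pow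
  obtain ⟨c, hc⟩ := qb_conj
  refine killA (h.map (MulAut.conj c⁻¹)) (mem_conj _ h1 ?_)
  rw [← hc, MulAut.conj_apply]
  group

/-- **`|A|` even** -/
theorem kill_even (h : IF A Γ) {t : Q} (ht : t ∈ A) (h2 : orderOf t = 2) : False := by
  obtain ⟨k, hk, hkt⟩ : ∃ k ∈ K, φ k = t := t.2
  have h3 : t * t = 1 := by rw [← pow_two, ← h2, pow_orderOf_eq_one]
  have h4 : φ (k ^ 2) = 1 := by
    rw [map_pow, hkt, pow_two]
    exact congrArg Subtype.val h3
  have hne : t ≠ 1 := by
    rintro rfl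
    rw [orderOf_one] at h2
    omega
  have key : ∀ (u : H0) (q : Q), (q : Perm (Fin 100)) = φ u → IsConj u k → ∃ c : H0, auQ c t = q := by
    intro u q hq hu
    obtain ⟨c, hc⟩ := isConj_iff.1 hu
    refine ⟨c⁻¹, Subtype.ext ?_⟩
    rw [auQ_apply, hq, ← hkt, ← hc, map_inv, map_mul, map_mul, map_inv]
    group
  have fin : ∀ q : Q, (q = ta ∨ q = tb) → (∃ c : H0, auQ c t = q) → False := by
    rintro q hq ⟨c, hc⟩
    have h5 := mem_conj (auQ c) ht hc
    rcases hq with rfl | rfl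
    · exact killA (h.map (auQ c)) h5
    · exact killB (h.map (auQ c)) h5
  rcases sq_cases (φ_eq_one_iff.1 h4) with h5 | h5 | h5 | h5 | h5 | h5 | h5
  · apply hne
    rw [h5, map_one] at hkt
    exact Subtype.ext hkt.symm
  · apply hne
    rw [h5, φ_τ] at hkt
    exact Subtype.ext hkt.symm
  · exact fin ta (Or.inl rfl) (key a ta rfl h5)
  · exact fin ta (Or.inl rfl) (key (a * τ) ta (φ_mul_τ a).symm h5)
  · exact fin tb (Or.inr rfl) (key gx tb rfl h5)
  · exact gz_notMem_K ((mem_K_of_isConj h5).2 hk)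
  · exact d_notMem_K ((mem_K_of_isConj h5).2 hk)

/-! ### the outer involutions -/

/-- `A8 → Q` -/
noncomputable def fA : A8 →* Q := φK.comp (iota.codRestrict K iota_mem_K)

theorem fA_coe (s : A8) : ((fA s : Q) : Perm (Fin 100)) = φ (iota s) := rfl

theorem fA_inj : Function.Injective fA := by
  rw [injective_iff_map_eq_one]
  intro s hs
  have h1 : φ (iota s) = 1 := congrArg Subtype.val hs
  rcases φ_eq_one_iff.1 h1 with h2 | h2
  · exact iota_inj (by rw [h2, map_one])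
  · have h3 : ∀ s' : A8, Commute s s' := by
      intro s'
      apply iota_inj
      rw [map_mul, map_mul, h2]
      exact (τ_iota s').eq
    exact Cfsg.Agent.HN.A8Facts.cen4 (h3 _) (h3 _) (h3 _) (h3 _)

theorem outer_of {u h : H0} (hu : IsConj u h) (L : Subgroup A8) (hL : ∀ s ∈ L, u * iota s = iota s * u)
    (h32 : 32 ∣ Nat.card L) : ∃ B : Subgroup Q, (∀ b ∈ B, auQ h b = b) ∧ 2 ^ 5 ∣ Nat.card B := by
  obtain ⟨c, rfl⟩ := isConj_iff.1 hu
  let F : A8 →* Q := (auQ c).toMonoidHom.comp fA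
  have hF : Function.Injective F := (auQ c).injective.comp fA_inj
  refine ⟨L.map F, ?_, ?_⟩
  · rintro _ ⟨s, hs, rfl⟩
    apply Subtype.ext
    have h1 : ((F s : Q) : Perm (Fin 100)) = φ c * φ (iota s) * (φ c)⁻¹ := rfl
    have h2 : φ u * φ (iota s) = φ (iota s) * φ u := by rw [← map_mul, ← map_mul, hL s hs]
    rw [auQ_apply, h1, map_mul, map_mul, map_inv]
    calc φ c * φ u * (φ c)⁻¹ * (φ c * φ (iota s) * (φ c)⁻¹) * (φ c * φ u * (φ c)⁻¹)⁻¹
        = φ c * (φ u * φ (iota s)) * (φ u)⁻¹ * (φ c)⁻¹ := by group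
      _ = φ c * (φ (iota s) * φ u) * (φ u)⁻¹ * (φ c)⁻¹ := by rw [h2]
      _ = φ c * φ (iota s) * (φ c)⁻¹ := by group
  · rwa [Nat.card_congr (Subgroup.equivMapOfInjective L F hF).symm.toEquiv]

theorem card_A8 : Nat.card A8 = 20160 := by
  have h1 := nat_card_alternatingGroup (α := Fin 8)
  rw [Nat.card_eq_fintype_card (α := Fin 8), Fintype.card_fin] at h1
  rw [h1]
  decide

theorem card_cen_p : 32 ∣ Nat.card (centralizer ({p_a2} : Set A8)) := by
  set p : Perm (Fin 8) := swap 0 2 * swap 1 4 with hp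
  have h1 : Nat.card (centralizer ({p} : Set (Perm (Fin 8)))) = 192 := by
    rw [Perm.nat_card_centralizer]
    have h2 : p.cycleType = {2, 2} := by
      rw [hp]
      decide +kernel
    rw [h2]
    decide
  have h2 : (centralizer ({p_a2} : Set A8)).map (alternatingGroup (Fin 8)).subtype =
      alternatingGroup (Fin 8) ⊓ centralizer {p} := by
    ext c
    constructor
    · rintro ⟨d, hd, rfl⟩
      exact ⟨d.2, Subgroup.mem_centralizer_singleton_iff.2
        (congrArg Subtype.val (Subgroup.mem_centralizer_singleton_iff.1 hd))⟩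
    · rintro ⟨h2, h3⟩
      exact ⟨⟨c, h2⟩, Subgroup.mem_centralizer_singleton_iff.2
        (Subtype.ext (Subgroup.mem_centralizer_singleton_iff.1 h3)), rfl⟩
  have h3 : Nat.card (centralizer ({p_a2} : Set A8)) =
      Nat.card (alternatingGroup (Fin 8) ⊓ centralizer {p} : Subgroup (Perm (Fin 8))) := by
    rw [← h2]
    exact Nat.card_congr (Subgroup.equivMapOfInjective _ _ (alternatingGroup (Fin 8)).subtype_injective).toEquiv
  have h4 : Nat.card (alternatingGroup (Fin 8) ⊓ centralizer {p} : Subgroup (Perm (Fin 8))) *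
      (alternatingGroup (Fin 8)).relIndex (centralizer {p}) = 192 := by
    rw [← h1, ← Subgroup.card_mul_index ((alternatingGroup (Fin 8)).subgroupOf (centralizer {p})), Subgroup.relIndex]
    congr 1
    rw [← Subgroup.inf_subgroupOf_right, Nat.card_congr (Subgroup.subgroupOfEquivOfLe
      (inf_le_right : alternatingGroup (Fin 8) ⊓ centralizer {p} ≤ _)).toEquiv]
  have h5 : (alternatingGroup (Fin 8)).relIndex (centralizer {p}) ∣ 2 := by
    have h6 := Subgroup.relIndex_dvd_index_of_normal (alternatingGroup (Fin 8)) (centralizer {p})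
    rwa [alternatingGroup.index_eq_two] at h6
  rw [h3]
  rcases (Nat.dvd_prime Nat.prime_two).1 h5 with h6 | h6
  · rw [h6] at h4
    omega
  · rw [h6] at h4
    omega

theorem outer (σ : MulAut Q) (ho : orderOf σ = 2) (hout : σ ∉ (MulAut.conj : Q →* MulAut Q).range) :
    ∃ B : Subgroup Q, (∀ b ∈ B, σ b = b) ∧ 2 ^ 5 ∣ Nat.card B := by
  obtain ⟨h, rfl⟩ := modQ.au_surj σ
  change orderOf (auQ h) = 2 at ho
  have hK : h ∉ K := fun hh => hout (modQ.au_mem_inner.2 hh)
  have h1 : modQ.au (h ^ 2) = 1 := by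
    rw [map_pow, ← ho]
    exact pow_orderOf_eq_one _
  rcases sq_cases ((modQ.au_ker _).1 h1) with h5 | h5 | h5 | h5 | h5 | h5 | h5
  · exact absurd (h5 ▸ K.one_mem) hK
  · exact absurd (h5 ▸ τ_mem_K) hK
  · exact absurd ((mem_K_of_isConj h5).1 (by rw [← hw_a]; exact mem_K_of_par rfl rfl)) hK
  · exact absurd ((mem_K_of_isConj h5).1 (K.mul_mem (by rw [← hw_a]; exact mem_K_of_par rfl rfl) τ_mem_K)) hK
  · exact absurd ((mem_K_of_isConj h5).1 gx_mem) hK
  · refine outer_of h5 ⊤ (fun s _ => (z_iota s).eq) ?_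
    rw [Subgroup.card_top, card_A8]
    decide
  · refine outer_of (isConj_z_a2.symm.trans h5) (centralizer {p_a2}) (fun s hs => ?_) card_cen_p
    have h6 : iota p_a2 * iota s = iota s * iota p_a2 := by
      rw [← map_mul, ← map_mul, Subgroup.mem_centralizer_singleton_iff.1 hs]
    rw [mul_assoc, h6, ← mul_assoc, (z_iota s).eq, mul_assoc]

/-- **No counterexample in `HS`.** -/
theorem kill_Q : Kill Q := by
  refine Kill.of ?_ ?_
  · rintro A Γ h ⟨t, ht, h2⟩
    exact kill_even h ht h2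
  · intro A Γ h hodd
    refine no_odd (k := 5) h hna hodd ?_ outer
    rw [HN.AutBound.card_Q]
    norm_num

/-- **S5719, the row `HS`** -/
theorem row : Row fun T => Spor.IsoHS T := by
  intro T _ _ _ _ h A Γ hA
  obtain ⟨e⟩ := h
  obtain ⟨⟨f⟩, -⟩ := HN.AutHS.nonempty_Q
  exact kill_Q.congr (f.trans e.symm) A Γ hA

end Cfsg.Agent.H109.IFx.HS
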